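import Cfsg.Agent.H39.SmithTyrer.Defs
import Cfsg.Agent.H33.SmithTyrer.FGen
import Cfsg.Agent.H58.SmithTyrer.Zeta
import Cfsg.Agent.H27.Induction
import Cfsg.Agent.H57.VChar
import Cfsg.Agent.H26.CharOrtho
import Cfsg.Agent.H25.IndRep

/-!
The twisted class function `psi` attached to an irreducible character whose values on the
`p`-singular elements are `μ + μ⁻¹` is a generalised character of the cover: on an elementary
subgroup `E` it is `p [E₀] z` plus a multiple of a character induced from the `p`-regular part.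
-/

set_option autoImplicit false
set_option linter.unusedSectionVars false
set_option linter.style.haveILetI false

namespace Cfsg.Agent.H63.SmithTyrer

open Cfsg.Agent.H39.SmithTyrer

universe u

section General

variable {E : Type u} [Group E] [Fintype E]

/-- A surjective homomorphism has fibres of the size of its kernel. -/
theorem sum_comp_surj {U : Type u} [Group U] [Fintype U] (f : E →* U) (hf : Function.Surjective f)
    (F : U → ℂ) : ∑ x : E, F (f x) = (Nat.card f.ker : ℂ) * ∑ y : U, F y := by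
  classical
  rw [← Finset.sum_fiberwise (Finset.univ : Finset E) f (fun x => F (f x)), Finset.mul_sum]
  refine Finset.sum_congr rfl fun y _ => ?_
  obtain ⟨x₀, rfl⟩ := hf y
  rw [Finset.sum_congr rfl (g := fun _ => F (f x₀)) (fun x hx => by rw [(Finset.mem_filter.1 hx).2]),
    Finset.sum_const, nsmul_eq_mul]
  congr 1
  rw [MonoidHom.card_fiber_eq_of_mem_range f ⟨x₀, rfl⟩ ⟨1, map_one f⟩, Nat.card_eq_fintype_card,
    Fintype.card_subtype]
  congr 2
  ext y
  simp [MonoidHom.mem_ker]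

open scoped Classical in
/-- A function induced from a normal subgroup on which it is invariant. -/
theorem indFun_invariant (N : Subgroup E) [hN : N.Normal] (θ : N → ℂ)
    (hθ : ∀ (x : E) (n : N), θ ⟨x⁻¹ * n * x, by simpa using hN.conj_mem n n.2 x⁻¹⟩ = θ n) (g : E) :
    Cfsg.indFun N θ g = if h : g ∈ N then (N.index : ℂ) * θ ⟨g, h⟩ else 0 := by
  rw [H25.indFun_apply]
  split_ifs with h
  · have : ∀ x : E, Cfsg.extendByZero N θ (x⁻¹ * g * x) = θ ⟨g, h⟩ := fun x => by
      rw [H25.extendByZero_of_mem _ _ (by simpa using hN.conj_mem g h x⁻¹)]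
      exact hθ x ⟨g, h⟩
    rw [Finset.sum_congr rfl fun x _ => this x, Finset.sum_const, Finset.card_univ, nsmul_eq_mul,
      ← Nat.card_eq_fintype_card, ← N.index_mul_card, ← mul_assoc]
    have : (Nat.card N : ℂ) ≠ 0 := Nat.cast_ne_zero.2 Nat.card_pos.ne'
    push_cast
    field_simp
  · have : ∀ x : E, Cfsg.extendByZero N θ (x⁻¹ * g * x) = 0 := fun x => by
      rw [H25.extendByZero_of_notMem]
      exact fun hx => h (by simpa [mul_assoc] using hN.conj_mem _ hx x)
    simp [this]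

/-- Generalised characters are closed under products. -/
theorem gen_mul {θ η : E → ℂ} (h : Cfsg.IsGeneralizedCharacter E θ)
    (h' : Cfsg.IsGeneralizedCharacter E η) : Cfsg.IsGeneralizedCharacter E (θ * η) := by
  obtain ⟨a, b, ha, hb, rfl⟩ := h
  obtain ⟨c, d, hc, hd, rfl⟩ := h'
  exact ⟨a * c + b * d, a * d + b * c,
    H26.isCharacter_add (H26.isCharacter_mul ha hc) (H26.isCharacter_mul hb hd),
    H26.isCharacter_add (H26.isCharacter_mul ha hd) (H26.isCharacter_mul hb hc), by ring⟩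

/-- Generalised characters pull back along homomorphisms. -/
theorem gen_comp {H : Type u} [Group H] {θ : E → ℂ} (h : Cfsg.IsGeneralizedCharacter E θ)
    (f : H →* E) : Cfsg.IsGeneralizedCharacter H (fun x => θ (f x)) := by
  obtain ⟨a, b, ha, hb, rfl⟩ := h
  exact ⟨_, _, H26.isCharacter_comp ha f, H26.isCharacter_comp hb f, rfl⟩

theorem gen_hom (μ : E →* ℂˣ) : Cfsg.IsGeneralizedCharacter E (fun x => (μ x : ℂ)) :=
  H57.gen_of_irr (H26.isIrrCharacter_hom μ)

theorem isClassFunction_of_gen {θ : E → ℂ} (h : Cfsg.IsGeneralizedCharacter E θ) :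
    Cfsg.IsClassFunction E θ := H57.gen_classFunction h

/-- A generalised character of `E` supported on a normal subgroup `K` and factoring on it through
a projection `u` onto `U ≤ K` is divisible by `|E : K|` on `U`. -/
theorem exists_divided {Φ : E → ℂ} (hΦ : Cfsg.IsGeneralizedCharacter E Φ) (K U : Subgroup E)
    (hUK : U ≤ K) (u : E →* U) (hu : ∀ x : U, u x = x) (hsupp : ∀ e, e ∉ K → Φ e = 0)
    (hfac : ∀ e ∈ K, Φ e = Φ (u e : E)) :
    ∃ Θ : U → ℂ, Cfsg.IsGeneralizedCharacter U Θ ∧ ∀ x : U, (K.index : ℂ) * Θ x = Φ x := by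
  classical
  have hFU : Cfsg.IsGeneralizedCharacter U (fun x : U => Φ x) := gen_comp hΦ U.subtype
  let uK : K →* U := u.comp K.subtype
  have huK : Function.Surjective uK := fun x => ⟨⟨x, hUK x.2⟩, hu x⟩
  have hint : ∀ ν : Cfsg.IrrCharacter U, ∃ k : ℤ,
      Cfsg.classInner (fun x : U => Φ x) ν.1 = (K.index : ℂ) * (k : ℂ) := by
    intro ν
    obtain ⟨k, hk⟩ := H57.gen_inner_int hΦ (gen_comp (H57.gen_of_irr ν.2) u)
    refine ⟨k, ?_⟩
    rw [← hk]
    unfold Cfsg.classInner
    have h1 : ∑ e : E, Φ e * (starRingEnd ℂ) (ν.1 (u e)) =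
        ∑ e : K, (fun x : U => Φ x * (starRingEnd ℂ) (ν.1 x)) (uK e) := by
      rw [← Finset.sum_filter_of_ne (p := fun e => e ∈ K) (s := Finset.univ)
        (fun e _ hne => by by_contra h; exact hne (by rw [hsupp e h, zero_mul])),
        Finset.sum_subtype _ (p := fun e => e ∈ K) (by simp)]
      exact Finset.sum_congr rfl fun e _ => by
        show Φ e * _ = Φ (u e : E) * _
        rw [hfac e e.2]; rfl
    rw [h1, sum_comp_surj uK huK (fun x : U => Φ x * (starRingEnd ℂ) (ν.1 x))]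
    have hKc : Nat.card K = Nat.card uK.ker * Nat.card U := by
      rw [← uK.ker.card_mul_index, Subgroup.index_ker,
        MonoidHom.range_eq_top.2 huK, Subgroup.card_top]
    have n1 : (Nat.card K : ℂ) ≠ 0 := Nat.cast_ne_zero.2 Nat.card_pos.ne'
    have n2 : (K.index : ℂ) ≠ 0 := Nat.cast_ne_zero.2 K.index_ne_zero_of_finite
    have n3 : (Nat.card uK.ker : ℂ) ≠ 0 := Nat.cast_ne_zero.2 Nat.card_pos.ne'
    have n4 : (Nat.card U : ℂ) ≠ 0 := Nat.cast_ne_zero.2 Nat.card_pos.ne'
    rw [← K.index_mul_card, hKc]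
    push_cast
    field_simp
  choose k hk using hint
  refine ⟨fun x => ∑ ν : Cfsg.IrrCharacter U, (k ν : ℂ) * ν.1 x, ?_, fun x => ?_⟩
  · have h := H57.gen_sum (s := Finset.univ) (f := fun ν : Cfsg.IrrCharacter U => (k ν) • ν.1)
      (fun ν _ => H57.gen_zsmul (H57.gen_of_irr ν.2) (k ν))
    convert h using 1
    funext x
    simp [Finset.sum_apply, zsmul_eq_mul]
  · have h := congrFun (H26.class_function_expansion _ (isClassFunction_of_gen hFU)) x
    rw [Finset.sum_apply] at h
    rw [h, Finset.mul_sum]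
    exact Finset.sum_congr rfl fun ν _ => by
      rw [Pi.smul_apply, smul_eq_mul, hk ν]; ring

end General

section Local

variable {G : Type u} [Group G] [Fintype G] {p : ℕ} {D : Setup G p} (C : Cover D)
  (ω : C.π.ker →* ℂˣ) {E : Type u} [Group E] [Fintype E]

/-- `ω ∘ zeta` on the preimage of `R`. -/
noncomputable def zHom (f : E →* C.Gh) : ↥(C.R.comap (C.π.comp f)) →* ℂˣ :=
  MonoidHom.mk' (fun e => ω (C.zeta (f e))) fun a b => by
    rw [Subgroup.coe_mul, map_mul f, H58.SmithTyrer.zeta_mul C a.2 b.2, map_mul]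

theorem zHom_of_ker (f : E →* C.Gh) (e : ↥(C.R.comap (C.π.comp f))) (he : C.π (f e) = 1) :
    zHom C ω f e = ω ⟨f e, he⟩ := by
  show ω _ = _
  congr 1
  exact Subtype.ext (H58.SmithTyrer.zeta_of_map_eq_one C he)

theorem f_conj_eq (f : E →* C.Gh) (hP : ∀ e, C.π (f e) ∈ (D.P : Subgroup G)) {n : E}
    (hn : C.π (f n) ∈ C.R) (x : E) : f (x⁻¹ * n * x) = f n := by
  rw [map_mul, map_mul, mul_assoc, C.comm (f n) (f x) hn (hP x), map_inv, inv_mul_cancel_left]

open scoped Classical in
/-- `p` times `zHom`, extended by zero, is a generalised character. -/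
theorem first_term (hω : Function.Injective ω) (f : E →* C.Gh)
    (hP : ∀ e, C.π (f e) ∈ (D.P : Subgroup G)) :
    Cfsg.IsGeneralizedCharacter E
      (fun e => if h : e ∈ C.R.comap (C.π.comp f) then
        (p : ℂ) * (zHom C ω f ⟨e, h⟩ : ℂ) else 0) := by
  haveI : Fact p.Prime := ⟨D.hp⟩
  set E0 := C.R.comap (C.π.comp f) with hE0
  set z := zHom C ω f
  let c : E →* ↥(D.P : Subgroup G) := (C.π.comp f).codRestrict _ hP
  have hcE0 : E0 = (C.R.subgroupOf (D.P : Subgroup G)).comap c := rfl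
  haveI hRn : (C.R.subgroupOf (D.P : Subgroup G)).Normal := ⟨fun r hr x => by
    have : x * r * x⁻¹ = r := Subtype.ext (by
      push_cast; rw [D.comm x x.2 r r.2, mul_inv_cancel_right])
    rwa [this]⟩
  haveI hn : E0.Normal := hcE0 ▸ hRn.comap c
  have hcm : ∀ n ∈ E0, ∀ x : E, x⁻¹ * n * x ∈ E0 := fun n h x => by
    have := hn.conj_mem n h x⁻¹
    rwa [inv_inv] at this
  have hinv : ∀ (x : E) (n : E0), z ⟨x⁻¹ * n * x, hcm n n.2 x⟩ = z n := fun x n => by
    show ω _ = ω _
    simp only [f_conj_eq C f hP n.2 x]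
  have hindex : E0.index ∣ p ^ 2 := by
    rw [hcE0, Subgroup.index_comap, ← C.R_index]
    exact Subgroup.relIndex_dvd_index_of_normal _ _
  have hind : ∀ g, Cfsg.indFun E0 (fun n => (z n : ℂ)) g =
      if h : g ∈ E0 then (E0.index : ℂ) * (z ⟨g, h⟩ : ℂ) else 0 :=
    indFun_invariant E0 _ (fun x n => by rw [hinv])
  obtain ⟨i, hi, hidx⟩ := (Nat.dvd_prime_pow D.hp).1 hindex
  interval_cases i
  · rw [pow_zero, Subgroup.index_eq_one] at hidx
    have hmem : ∀ e : E, e ∈ E0 := fun e => hidx.symm ▸ Subgroup.mem_top e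
    let z' : E →* ℂˣ :=
      MonoidHom.mk' (fun e => z ⟨e, hmem e⟩) fun a b => by rw [← map_mul]; rfl
    have h := H57.gen_zsmul (gen_hom z') (p : ℤ)
    convert h using 1
    funext e
    rw [dif_pos (hmem e)]
    simp [z', zsmul_eq_mul]
  · rw [pow_one] at hidx
    have h := H57.gen_of_char (H25.isCharacter_indFun E0
      (H26.isCharacter_of_irr (H26.isIrrCharacter_hom z)))
    convert h using 1
    funext e
    rw [hind, hidx]
  · obtain ⟨a, ha⟩ : ∃ a, a ∉ E0 := by
      by_contra h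
      push Not at h
      rw [(Subgroup.eq_top_iff' E0).2 h, Subgroup.index_top] at hidx
      exact absurd hidx (Nat.one_lt_pow (by norm_num) D.hp.one_lt).ne
    have hap : a ^ p ∈ E0 := by
      show C.π (f (a ^ p)) ∈ C.R
      rw [map_pow, map_pow]
      exact C.pow_mem _ (hP a)
    set L := E0 ⊔ Subgroup.zpowers a with hL
    have hE0L : E0 ≤ L := le_sup_left
    have hLmap : L.map (QuotientGroup.mk' E0) = Subgroup.zpowers (QuotientGroup.mk' E0 a) := by
      rw [hL, Subgroup.map_sup, MonoidHom.map_zpowers, QuotientGroup.map_mk'_self, bot_sup_eq]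
    haveI hLn : L.Normal := ⟨fun n hn' x => by
      have h1 : x * n * x⁻¹ * n⁻¹ ∈ E0 := by
        show C.π (f _) ∈ C.R
        have : C.π (f x) * C.π (f n) = C.π (f n) * C.π (f x) := D.comm _ (hP x) _ (hP n)
        simp only [map_mul, map_inv]
        rw [this]
        simpa using one_mem C.R
      simpa using mul_mem (hE0L h1) hn'⟩
    have hLidx : L.index = p := by
      have h1 : (L.map (QuotientGroup.mk' E0)).index = L.index :=
        Subgroup.index_map_eq _ (QuotientGroup.mk'_surjective _) (by simpa using hE0L)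
      have h2 := (L.map (QuotientGroup.mk' E0)).card_mul_index
      rw [h1, hLmap, Nat.card_zpowers, ← Subgroup.index_eq_card, hidx] at h2
      have h3 : orderOf (QuotientGroup.mk' E0 a) = p :=
        orderOf_eq_prime (by rw [← map_pow]; exact (QuotientGroup.eq_one_iff _).2 hap)
          (fun h => ha ((QuotientGroup.eq_one_iff _).1 h))
      rw [h3, pow_two] at h2
      exact mul_left_cancel₀ D.hp.ne_zero h2
    -- the abelian group `f L`
    set A : Subgroup C.Gh := Subgroup.closure ((f '' E0) ∪ {f a}) with hA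
    have hfA : ∀ e : L, f e ∈ A := fun e => by
      have : L ≤ A.comap f := sup_le (fun x hx => Subgroup.subset_closure (Or.inl ⟨x, hx, rfl⟩))
        (Subgroup.zpowers_le.2 (Subgroup.subset_closure (Or.inr rfl)))
      exact this e.2
    have hcomm : ∀ x ∈ (f '' E0) ∪ {f a}, ∀ y ∈ (f '' E0) ∪ {f a}, x * y = y * x := by
      rintro x (⟨x, hx, rfl⟩ | rfl) y (⟨y, hy, rfl⟩ | rfl)
      · exact C.comm _ _ hx (hP y)
      · exact C.comm _ _ hx (hP a)
      · exact (C.comm _ _ hy (hP a)).symm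
      · rfl
    letI hAc : CommGroup A :=
      { (inferInstance : Group A) with
        mul_comm := fun x y => Subtype.ext
          (Subgroup.closure_induction₂ (p := fun x y _ _ => x * y = y * x)
            (fun x y hx hy => hcomm x hx y hy) (fun x _ => by simp) (fun x _ => by simp)
            (fun x y z _ _ _ h1 h2 => Commute.mul_left h1 h2)
            (fun x y z _ _ _ h1 h2 => Commute.mul_right h1 h2)
            (fun x y _ _ h => Commute.inv_left h) (fun x y _ _ h => Commute.inv_right h) x.2 y.2) }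
    let zB : ↥((E0.map f).subgroupOf A) →* ℂˣ :=
      MonoidHom.mk' (fun b => ω (C.zeta ((b : A) : C.Gh))) fun b b' => by
        have hR : ∀ w : ↥((E0.map f).subgroupOf A), C.π ((w : A) : C.Gh) ∈ C.R := fun w => by
          obtain ⟨e, he, hw⟩ := w.2
          have hw' : f e = ((w : A) : C.Gh) := hw
          rw [← hw']; exact he
        rw [← map_mul ω, ← H58.SmithTyrer.zeta_mul C (hR b) (hR b')]
        rfl
    haveI : NeZero (Monoid.exponent A) := ⟨Monoid.exponent_ne_zero_of_finite⟩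
    obtain ⟨lA, hlA⟩ := MonoidHom.domRestrict_surjective (M := ℂ) ((E0.map f).subgroupOf A) zB
    let lam : L →* ℂˣ := lA.comp ((f.comp L.subtype).codRestrict A hfA)
    have hlam : ∀ (e : E) (h : e ∈ E0), lam ⟨e, hE0L h⟩ = z ⟨e, h⟩ := fun e h =>
      DFunLike.congr_fun hlA ⟨⟨f e, hfA ⟨e, hE0L h⟩⟩, ⟨e, h, rfl⟩⟩
    have hgen := H57.gen_of_char (H25.isCharacter_indFun L
      (H26.isCharacter_of_irr (H26.isIrrCharacter_hom lam)))
    convert hgen using 1
    funext e
    rw [H25.indFun_apply]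
    split_ifs with he
    · have h1 : ∀ x : E, Cfsg.extendByZero L (fun n => (lam n : ℂ)) (x⁻¹ * e * x) =
          (z ⟨e, he⟩ : ℂ) := fun x => by
        have hx : x⁻¹ * e * x ∈ E0 := hcm e he x
        rw [H25.extendByZero_of_mem _ _ (hE0L hx)]
        simp only [hlam _ hx, hinv x ⟨e, he⟩]
      rw [Finset.sum_congr rfl fun x _ => h1 x, Finset.sum_const, Finset.card_univ, nsmul_eq_mul,
        ← Nat.card_eq_fintype_card, ← L.index_mul_card, hLidx]
      have : (Nat.card L : ℂ) ≠ 0 := Nat.cast_ne_zero.2 Nat.card_pos.ne'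
      push_cast
      field_simp
    · by_cases heL : e ∈ L
      · -- a partner of `f e` inside `f E`
        obtain ⟨b, hb, hbe⟩ := C.nondeg (f e) (hP e) he
        have hsurj : ∃ y : E, C.π b * (C.π (f y))⁻¹ ∈ C.R := by
          have h1 : ((C.R.subgroupOf (D.P : Subgroup G)).comap c).index =
              (C.R.subgroupOf (D.P : Subgroup G)).index := by
            rw [← hcE0, hidx]; exact C.R_index.symm
          set q := QuotientGroup.mk' (C.R.subgroupOf (D.P : Subgroup G))
          have hq : (q.comp c).range = ⊤ := by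
            refine Subgroup.eq_top_of_card_eq _ ?_
            rw [← Subgroup.index_ker, ← Subgroup.index_eq_card,
              show (q.comp c).ker = (C.R.subgroupOf (D.P : Subgroup G)).comap c by
                rw [← MonoidHom.comap_ker, QuotientGroup.ker_mk']]
            exact h1
          obtain ⟨y, hy⟩ := (q.comp c).range_eq_top.1 hq (q ⟨C.π b, hb⟩)
          refine ⟨y, ?_⟩
          have h2 := (QuotientGroup.eq_iff_div_mem).1 hy.symm
          simpa [Subgroup.mem_subgroupOf, div_eq_mul_inv, c] using h2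
        obtain ⟨y, hy⟩ := hsurj
        have hye : f e * f y ≠ f y * f e := fun h => by
          have h1 : Commute (b * (f y)⁻¹) (f e) := C.comm _ _ (by simpa using hy) (hP e)
          have h2 := h1.mul_left (show Commute (f y) (f e) from h.symm)
          rw [inv_mul_cancel_right] at h2
          exact hbe h2.eq.symm
        set k := y⁻¹ * e * y * e⁻¹ with hk
        have hk1 : C.π (f k) = 1 := by
          have : C.π (f e) * C.π (f y) = C.π (f y) * C.π (f e) := D.comm _ (hP e) _ (hP y)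
          simp only [hk, map_mul, map_inv]
          rw [mul_assoc (C.π (f y))⁻¹, this, inv_mul_cancel_left, mul_inv_cancel]
        have hkE0 : k ∈ E0 := by
          show C.π (f k) ∈ C.R
          rw [hk1]; exact one_mem _
        have hzk : (z ⟨k, hkE0⟩ : ℂ) ≠ 1 := by
          rw [zHom_of_ker C ω f ⟨k, hkE0⟩ hk1]
          intro h
          have h2 : (⟨f k, hk1⟩ : C.π.ker) = 1 :=
            hω (by rw [map_one]; exact Units.ext h)
          have h3 : f k = 1 := congrArg Subtype.val h2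
          simp only [hk, map_mul, map_inv, mul_inv_eq_one] at h3
          exact hye (by rw [mul_assoc] at h3; exact (eq_inv_mul_iff_mul_eq.1 h3.symm).symm)
        set S := ∑ x : E, Cfsg.extendByZero L (fun n => (lam n : ℂ)) (x⁻¹ * e * x) with hS
        have hstep : ∀ x : E, Cfsg.extendByZero L (fun n => (lam n : ℂ)) ((y * x)⁻¹ * e * (y * x))
            = (z ⟨k, hkE0⟩ : ℂ) * Cfsg.extendByZero L (fun n => (lam n : ℂ)) (x⁻¹ * e * x) := by
          intro x
          have hxk : x⁻¹ * k * x ∈ E0 := hcm k hkE0 x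
          have hxe : x⁻¹ * e * x ∈ L := by simpa using hLn.conj_mem e heL x⁻¹
          have hmem : (y * x)⁻¹ * e * (y * x) ∈ L := by
            simpa using hLn.conj_mem e heL (y * x)⁻¹
          rw [H25.extendByZero_of_mem _ _ hxe, H25.extendByZero_of_mem _ _ hmem]
          have : (⟨_, hmem⟩ : L) = ⟨_, hE0L hxk⟩ * ⟨_, hxe⟩ := Subtype.ext (by
            show _ = x⁻¹ * k * x * (x⁻¹ * e * x)
            rw [hk]; group)
          simp only [this, map_mul, Units.val_mul, hlam _ hxk, hinv x ⟨k, hkE0⟩]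
        have hSS : S = (z ⟨k, hkE0⟩ : ℂ) * S := by
          rw [hS, Finset.mul_sum, ← Finset.sum_congr rfl fun x _ => hstep x]
          exact (Equiv.sum_comp (Equiv.mulLeft y)
            (fun x => Cfsg.extendByZero L (fun n => (lam n : ℂ)) (x⁻¹ * e * x))).symm
        have : S = 0 := by
          by_contra h0
          exact hzk (mul_right_cancel₀ h0 (by rw [one_mul]; exact hSS.symm))
        rw [this, mul_zero]
      · have : ∀ x : E, Cfsg.extendByZero L (fun n => (lam n : ℂ)) (x⁻¹ * e * x) = 0 := fun x => by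
          rw [H25.extendByZero_of_notMem]
          exact fun hx => heL (by simpa [mul_assoc] using hLn.conj_mem _ hx x)
        simp [this]

/-- `psi` on a subgroup whose `p`-parts lie over `P`. -/
theorem psi_local (hω : Function.Injective ω) (X : Cfsg.IrrCharacter G) (e : ℂ) (he : e * e = 1)
    (μ : ↥(D.P : Subgroup G) →* ℂˣ)
    (hμR : ∀ x : ↥(D.P : Subgroup G), (x : G) ∈ C.R → μ x = 1)
    (hX : ∀ g, pp p g ≠ 1 → e * X.1 g = (μ (D.rep g) : ℂ) + (μ (D.rep g)⁻¹ : ℂ))
    (A : ℕ) (hA : 2 * A + 1 = p) (g : E →* C.Gh) (hg : Function.Injective g) (f0 : E →* E)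
    (hf0 : ∀ x, g (f0 x) = pp p (g x)) (hP : ∀ x, C.π (g (f0 x)) ∈ (D.P : Subgroup G)) :
    Cfsg.IsGeneralizedCharacter E
      (fun x => C.psi ω (fun y => (A : ℂ) * (e * X.1 y) + 1) (g x)) := by
  classical
  haveI : Fact p.Prime := ⟨D.hp⟩
  set f : E →* C.Gh := g.comp f0 with hf
  set z := zHom C ω f
  set K := (C.π.comp f).ker with hK
  have hKE0 : K ≤ C.R.comap (C.π.comp f) := fun x hx => by
    show (C.π.comp f) x ∈ C.R
    rw [show (C.π.comp f) x = 1 from hx]; exact one_mem _
  let c : E →* ↥(D.P : Subgroup G) := (C.π.comp f).codRestrict _ hP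
  have hppπ : ∀ x, pp p (C.π (g x)) = C.π (f x) := fun x => by
    rw [pp_map, ← hf0]; rfl
  have hrep : ∀ x, D.rep (C.π (g x)) = c x ∨ D.rep (C.π (g x)) = (c x)⁻¹ := fun x =>
    D.rep_of_conj (c x) (h := 1) (by rw [hppπ]; simp [c])
  have heval : ∀ x, pp p (C.π (g x)) ≠ 1 →
      e * X.1 (C.π (g x)) = (μ (c x) : ℂ) + (μ (c x)⁻¹ : ℂ) := fun x hx => by
    rw [hX _ hx]
    rcases hrep x with h | h <;> rw [h]
    rw [inv_inv, add_comm]
  -- the `p`-regular projection
  set U := f0.ker with hU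
  have hidem : ∀ x, f0 (f0 x) = f0 x := fun x => hg (by
    rw [hf0, hf0]
    refine pp_eq ⟨1, mul_one _, Commute.one_right _, ?_, by simp [D.hp.ne_one]⟩
    obtain ⟨y, -, -, hy, -⟩ := pp_spec (p := p) (g x)
    exact hy)
  have hcom : ∀ x k, f0 k = 1 → Commute (f0 x) k := fun x k hk => by
    have h1 : f0 (f0 x * k) = f0 x := by rw [map_mul, hidem, hk, mul_one]
    have h2 : Commute (f0 x) (f0 x * k) := by
      have := commute_pp (p := p) (g (f0 x * k))
      rw [← hf0, h1] at this
      exact hg (by rw [map_mul g (f0 x) (f0 x * k), map_mul g (f0 x * k) (f0 x)]; exact this.eq)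
    have h3 := ((Commute.refl (f0 x)).inv_right).mul_right h2
    rwa [inv_mul_cancel_left] at h3
  have hUmem : ∀ x, (f0 x)⁻¹ * x ∈ U := fun x => by
    show f0 _ = 1
    rw [map_mul, map_inv, hidem, inv_mul_cancel]
  let u : E →* U := MonoidHom.mk' (fun x => ⟨(f0 x)⁻¹ * x, hUmem x⟩) fun a b => Subtype.ext (by
    show (f0 (a * b))⁻¹ * (a * b) = (f0 a)⁻¹ * a * ((f0 b)⁻¹ * b)
    have h := (hcom b _ (hUmem a)).inv_left
    rw [map_mul, mul_inv_rev]
    calc (f0 b)⁻¹ * (f0 a)⁻¹ * (a * b) = (f0 b)⁻¹ * ((f0 a)⁻¹ * a) * b := by group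
      _ = (f0 a)⁻¹ * a * (f0 b)⁻¹ * b := by rw [h.eq]
      _ = _ := by group)
  have hu : ∀ x : U, u x = x := fun x => Subtype.ext (by
    show (f0 (x : E))⁻¹ * (x : E) = x
    rw [show f0 (x : E) = 1 from x.2, inv_one, one_mul])
  have hUK : U ≤ K := fun x hx => by
    show C.π (g (f0 x)) = 1
    rw [show f0 x = 1 from hx, map_one, map_one]
  -- the character `Φ`
  set Φ : E → ℂ := fun x => e * X.1 (C.π (g x)) - ((μ (c x) : ℂ) + (μ (c x)⁻¹ : ℂ)) with hΦ
  have hΦgen : Cfsg.IsGeneralizedCharacter E Φ := by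
    refine H57.gen_sub ?_ (H57.gen_add (gen_hom (μ.comp c)) ?_)
    · have h0 := gen_comp (H57.gen_of_irr X.2) (C.π.comp g)
      rcases mul_self_eq_one_iff.1 he with rfl | rfl
      · simpa using h0
      · simpa [Pi.neg_def] using H57.gen_neg h0
    · simpa using gen_hom ((μ.comp c)⁻¹)
  have hΦ0 : ∀ x, x ∉ K → Φ x = 0 := fun x hx => by
    have : pp p (C.π (g x)) ≠ 1 := fun h => hx ((hppπ x).symm.trans h)
    simp only [hΦ, heval x this, sub_self]
  have hΦK : ∀ x ∈ K, Φ x = e * X.1 (C.π (g x)) - 2 := fun x hx => by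
    have : c x = 1 := Subtype.ext hx
    simp only [hΦ, this, inv_one, map_one, Units.val_one]; norm_num
  have hfac : ∀ x ∈ K, Φ x = Φ (u x : E) := fun x hx => by
    rw [hΦK x hx, hΦK _ (hUK (u x).2)]
    have h : C.π (g ((f0 x)⁻¹ * x)) = C.π (g x) := by
      rw [map_mul, map_inv, map_mul, map_inv, show C.π (g (f0 x)) = 1 from hx, inv_one, one_mul]
    show _ = e * X.1 (C.π (g ((f0 x)⁻¹ * x))) - 2
    rw [h]
  obtain ⟨Θ, hΘ, hΘv⟩ := exists_divided hΦgen K U hUK u hu hΦ0 hfac
  let zK : K →* ℂˣ := z.comp (Subgroup.inclusion hKE0)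
  haveI hKn : K.Normal := MonoidHom.normal_ker _
  have hKc : ∀ n ∈ K, ∀ x : E, x⁻¹ * n * x ∈ K := fun n h x => by
    have := hKn.conj_mem n h x⁻¹
    rwa [inv_inv] at this
  have hzK : ∀ (x : E) (n : K), zK ⟨x⁻¹ * n * x, hKc n n.2 x⟩ = zK n :=
    fun x n => by
      show ω _ = ω _
      simp only [Subgroup.coe_inclusion, f_conj_eq C f hP (hKE0 n.2) x]
  have hT2 : Cfsg.IsGeneralizedCharacter E
      (fun x => Cfsg.indFun K (fun n => (zK n : ℂ)) x * Θ (u x)) :=
    gen_mul (H57.gen_of_char (H25.isCharacter_indFun K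
      (H26.isCharacter_of_irr (H26.isIrrCharacter_hom zK)))) (gen_comp hΘ u)
  have hfin := H57.gen_add (first_term C ω hω f hP) (H57.gen_zsmul hT2 (A : ℤ))
  convert hfin using 1
  funext x
  rw [Pi.add_apply, Pi.smul_apply, zsmul_eq_mul,
    indFun_invariant K _ (fun x n => by rw [hzK]) x]
  have hpC : (p : ℂ) = 2 * (A : ℂ) + 1 := by rw [← hA]; push_cast; rfl
  unfold Cover.psi
  have hzeta : C.zeta (pp p (g x)) = C.zeta (f x) := by rw [← hf0]; rfl
  by_cases hx0 : x ∈ C.R.comap (C.π.comp f)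
  · rw [if_pos ⟨1, by rw [hppπ]; simpa using hx0⟩, dif_pos hx0, hzeta]
    by_cases hxK : x ∈ K
    · rw [dif_pos hxK]
      have h1 : (K.index : ℂ) * Θ (u x) = e * X.1 (C.π (g x)) - 2 := by
        rw [hΘv, ← hfac x hxK, hΦK x hxK]
      show (ω (C.zeta (f x)) : ℂ) * _ = (p : ℂ) * (ω (C.zeta (f x)) : ℂ) +
        (A : ℤ) * ((K.index : ℂ) * (ω (C.zeta (f x)) : ℂ) * Θ (u x))
      rw [hpC]
      push_cast
      linear_combination (-(A : ℂ) * (ω (C.zeta (f x)) : ℂ)) * h1
    · rw [dif_neg hxK]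
      have hne : pp p (C.π (g x)) ≠ 1 := fun h => hxK ((hppπ x).symm.trans h)
      have h1 := hμR (c x) hx0
      show (ω (C.zeta (f x)) : ℂ) * ((A : ℂ) * (e * X.1 (C.π (g x))) + 1) = _
      rw [heval x hne, map_inv, h1, inv_one, Units.val_one]
      show _ = (p : ℂ) * (ω (C.zeta (f x)) : ℂ) + _
      rw [hpC]; ring
  · rw [dif_neg hx0, dif_neg (fun h => hx0 (hKE0 h)), if_neg]
    · simp
    rintro ⟨h, hh⟩
    rw [hppπ] at hh
    refine hx0 ?_
    show C.π (f x) ∈ C.R
    rcases D.fus _ (hP x) h (C.R_le hh) with h' | h'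
    · rwa [show C.π (f x) = h * C.π (f x) * h⁻¹ from h'.symm]
    · have := C.R.inv_mem hh
      rwa [show h * C.π (f x) * h⁻¹ = (C.π (f x))⁻¹ from h', inv_inv] at this

end Local

variable {G : Type u} [Group G] [Fintype G] {p : ℕ}

/-- `psi` of `A (e X) + 1` is a generalised character of the cover. -/
theorem psi_isGen {D : Setup G p} (C : Cover D) (ω : C.π.ker →* ℂˣ) (hω : Function.Injective ω)
    (X : Cfsg.IrrCharacter G) (e : ℂ) (he : e * e = 1) (μ : ↥(D.P : Subgroup G) →* ℂˣ)
    (hμR : ∀ x : ↥(D.P : Subgroup G), (x : G) ∈ C.R → μ x = 1)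
    (hX : ∀ g, pp p g ≠ 1 → e * X.1 g = (μ (D.rep g) : ℂ) + (μ (D.rep g)⁻¹ : ℂ))
    (A : ℕ) (hA : 2 * A + 1 = p) :
    Cfsg.IsGeneralizedCharacter C.Gh (C.psi ω (fun g => (A : ℂ) * (e * X.1 g) + 1)) := by
  classical
  haveI : Fact p.Prime := ⟨D.hp⟩
  letI : Fintype C.Gh := Fintype.ofFinite _
  have hφ : Cfsg.IsClassFunction G (fun g => (A : ℂ) * (e * X.1 g) + 1) := fun g h => by
    simp only [H26.irr_conj]
  have hcl := H58.SmithTyrer.psi_isClassFunction C ω hφ
  refine H27.mem_genChars_of_elementary hcl fun E q hq hEl => ?_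
  obtain ⟨f0, hf0⟩ := H33.SmithTyrer.exists_ppHom (p := p)
    (H27.isNilpotent_of_isElementary hq hEl)
  let f' : ↥E →* G := C.π.comp (E.subtype.comp f0)
  have hR : IsPGroup p f'.range := by
    rintro ⟨x, a, rfl⟩
    obtain ⟨n, hn⟩ := pp_pgroup (p := p) (a : C.Gh) ⟨pp p (a : C.Gh), Subgroup.mem_zpowers _⟩
    have hn' : pp p (a : C.Gh) ^ p ^ n = 1 := congrArg Subtype.val hn
    refine ⟨n, Subtype.ext ?_⟩
    show (f' a) ^ p ^ n = 1
    rw [show f' a = C.π (pp p (a : C.Gh)) from congrArg C.π (hf0 a), ← map_pow, hn', map_one]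
  obtain ⟨Q, hQ⟩ := hR.exists_le_sylow
  obtain ⟨h, hh⟩ := MulAction.exists_smul_eq G Q D.P
  obtain ⟨hb, rfl⟩ := C.surj h
  let g : ↥E →* C.Gh := (MulAut.conj hb).toMonoidHom.comp E.subtype
  have key := psi_local (E := ↥E) C ω hω X e he μ hμR hX A hA g
    ((MulAut.conj hb).injective.comp E.subtype_injective) f0
    (fun x => by
      show hb * (f0 x : C.Gh) * hb⁻¹ = pp p (hb * (x : C.Gh) * hb⁻¹)
      rw [pp_conj, hf0])
    (fun x => by
      show C.π (hb * (f0 x : C.Gh) * hb⁻¹) ∈ (D.P : Subgroup G)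
      rw [map_mul, map_mul, map_inv, ← hh, Sylow.coe_subgroup_smul]
      exact Subgroup.smul_mem_pointwise_smul (f' x) (MulAut.conj (C.π hb)) (Q : Subgroup G)
        (hQ ⟨x, rfl⟩))
  convert key using 1
  funext x
  exact (hcl x hb).symm

end Cfsg.Agent.H63.SmithTyrer
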