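import Cfsg.Agent.H39.SmithTyrer.Tools
import Cfsg.Agent.H27.Dual
import Cfsg.Agent.H63.SmithTyrer.PsiGen
import Cfsg.Agent.H76.SmithTyrer.Sections

/-!
The twisted class function `psi` of `A (e X) + 1` has norm one: its norm is the norm of
`A (e X) + 1` minus the contribution of the `p`-parts outside `R`, an explicit sum over `P`.
-/

set_option autoImplicit false
set_option linter.unusedSectionVars false

namespace Cfsg.Agent.H63.SmithTyrer

open Cfsg.Agent.H39.SmithTyrer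
open scoped ComplexConjugate

universe u

variable {G : Type u} [Group G] [Fintype G] {p : ℕ}

/-- A linear character of odd order squares to `1` only if trivial. -/
theorem hom_sq_ne_one (D : Setup G p) {μ : ↥(D.P : Subgroup G) →* ℂˣ} (hμ : μ ≠ 1) :
    μ * μ ≠ 1 := by
  intro h
  refine hμ (MonoidHom.ext fun x => ?_)
  have h2 : μ x ^ 2 = 1 := by rw [pow_two]; exact DFunLike.congr_fun h x
  haveI : Fact p.Prime := ⟨D.hp⟩
  obtain ⟨k, hk⟩ := D.P.isPGroup' x
  obtain ⟨m, hm⟩ := (D.hp.odd_of_ne_two D.odd).pow (n := k)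
  have h3 : μ x ^ (2 * m + 1) = 1 := by rw [← hm, ← map_pow, hk, map_one]
  rw [pow_succ, pow_mul, h2, one_pow, one_mul] at h3
  simpa using h3

open scoped Classical in
/-- The sum over `P` of the squared values off `R`. -/
theorem sum_sq_off_R (D : Setup G p) (C : Cover D) (μ : ↥(D.P : Subgroup G) →* ℂˣ) (hμ : μ ≠ 1)
    (hμR : ∀ x : ↥(D.P : Subgroup G), (x : G) ∈ C.R → μ x = 1) (A : ℕ) (hA : 2 * A + 1 = p) :
    ∑ x ∈ (Finset.univ : Finset ↥(D.P : Subgroup G)).erase 1,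
      (if (x : G) ∈ C.R then 0 else ((A : ℂ) * ((μ x : ℂ) + (μ x⁻¹ : ℂ)) + 1) ^ 2) =
      2 * (A : ℂ) ^ 2 * Nat.card ↥(D.P : Subgroup G) := by
  set F : ↥(D.P : Subgroup G) → ℂ := fun x => ((A : ℂ) * ((μ x : ℂ) + (μ x⁻¹ : ℂ)) + 1) ^ 2
    with hF
  rw [Finset.sum_erase _ (by rw [if_pos (by simp)])]
  have hsplit : ∀ x : ↥(D.P : Subgroup G), (if (x : G) ∈ C.R then 0 else F x) =
      F x - (if (x : G) ∈ C.R then ((A : ℂ) * 2 + 1) ^ 2 else 0) := fun x => by
    split_ifs with h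
    · simp only [hF, hμR x h, hμR x⁻¹ (inv_mem h), Units.val_one]; ring
    · ring
  simp only [show ∀ x : ↥(D.P : Subgroup G),
    (if (x : G) ∈ C.R then (0 : ℂ) else ((A : ℂ) * ((μ x : ℂ) + (μ x⁻¹ : ℂ)) + 1) ^ 2) = _ from
    hsplit, Finset.sum_sub_distrib]
  have h1 : ∑ x, (μ x : ℂ) = 0 := H27.sum_apply_linear hμ
  have h2 : ∑ x, (μ x : ℂ) ^ 2 = 0 := by
    simpa [pow_two] using H27.sum_apply_linear (hom_sq_ne_one D hμ)
  have h1' : ∑ x : ↥(D.P : Subgroup G), (μ x⁻¹ : ℂ) = 0 :=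
    (Equiv.sum_comp (Equiv.inv _) (fun x => (μ x : ℂ))).trans h1
  have h2' : ∑ x : ↥(D.P : Subgroup G), (μ x⁻¹ : ℂ) ^ 2 = 0 :=
    (Equiv.sum_comp (Equiv.inv _) (fun x => (μ x : ℂ) ^ 2)).trans h2
  have hpt : ∀ x, F x = (A : ℂ) ^ 2 * (μ x : ℂ) ^ 2 + (A : ℂ) ^ 2 * (μ x⁻¹ : ℂ) ^ 2 +
      2 * (A : ℂ) * (μ x : ℂ) + 2 * (A : ℂ) * (μ x⁻¹ : ℂ) + (2 * (A : ℂ) ^ 2 + 1) := fun x => by
    have : (μ x : ℂ) * (μ x⁻¹ : ℂ) = 1 := by
      rw [← Units.val_mul, ← map_mul, mul_inv_cancel, map_one, Units.val_one]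
    simp only [hF]
    linear_combination (2 * (A : ℂ) ^ 2) * this
  have hall : ∑ x, F x = (Nat.card ↥(D.P : Subgroup G) : ℂ) * (2 * (A : ℂ) ^ 2 + 1) := by
    simp only [hpt, Finset.sum_add_distrib, ← Finset.mul_sum, h1, h1', h2, h2', Finset.sum_const,
      Finset.card_univ, nsmul_eq_mul, mul_zero, zero_add, ← Nat.card_eq_fintype_card]
    ring
  rw [hall]
  have hcard : Nat.card ↥(D.P : Subgroup G) = p ^ 2 * Nat.card C.R := by
    rw [← C.R_index, Subgroup.relIndex, ← Nat.card_congr (Subgroup.subgroupOfEquivOfLe C.R_le).toEquiv,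
      Subgroup.index_mul_card]
  have hR : (Finset.univ.filter (fun x : ↥(D.P : Subgroup G) => (x : G) ∈ C.R)).card =
      Nat.card C.R := by
    rw [← Nat.card_congr (Subgroup.subgroupOfEquivOfLe C.R_le).toEquiv, Nat.card_eq_fintype_card,
      ← Fintype.card_subtype]
    exact Fintype.card_congr (Equiv.refl _)
  rw [← Finset.sum_filter, Finset.sum_const, hR, nsmul_eq_mul, hcard]
  have hp : (p : ℂ) = 2 * (A : ℂ) + 1 := by exact_mod_cast hA.symm
  push_cast
  rw [hp]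
  ring

open scoped Classical in
/-- The norm of `psi`, from the sum over the `p`-singular elements. -/
theorem psi_norm' {D : Setup G p}
    (hsum : ∀ f : ↥(D.P : Subgroup G) → ℂ, D.IsEven f →
      (2 * Nat.card ↥(D.P : Subgroup G) : ℂ) * ∑ g : G, D.ext f g =
        (Nat.card G : ℂ) * ∑ x ∈ Finset.univ.erase 1, f x)
    (C : Cover D) [Fintype C.Gh] (ω : C.π.ker →* ℂˣ)
    (X : Cfsg.IrrCharacter G) (hX1 : X ≠ H26.oneIrr G) (e : ℂ) (he : e * e = 1)
    (μ : ↥(D.P : Subgroup G) →* ℂˣ) (hμ : μ ≠ 1)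
    (hμR : ∀ x : ↥(D.P : Subgroup G), (x : G) ∈ C.R → μ x = 1)
    (hX : ∀ g, pp p g ≠ 1 → e * X.1 g = (μ (D.rep g) : ℂ) + (μ (D.rep g)⁻¹ : ℂ))
    (A : ℕ) (hA : 2 * A + 1 = p) :
    Cfsg.classInner (C.psi ω (fun g => (A : ℂ) * (e * X.1 g) + 1))
      (C.psi ω (fun g => (A : ℂ) * (e * X.1 g) + 1)) = 1 := by
  haveI : Fact p.Prime := ⟨D.hp⟩
  set φ : G → ℂ := fun g => (A : ℂ) * (e * X.1 g) + 1 with hφ
  set f : ↥(D.P : Subgroup G) → ℂ := fun x =>
    if (x : G) ∈ C.R then 0 else ((A : ℂ) * ((μ x : ℂ) + (μ x⁻¹ : ℂ)) + 1) ^ 2 with hf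
  have hfe : D.IsEven f := fun x => by
    simp only [hf, Subgroup.coe_inv, inv_mem_iff, inv_inv]
    split_ifs
    · rfl
    · ring
  -- reduction to the simple group
  have hω : ∀ z : C.π.ker, (ω z : ℂ) * conj (ω z : ℂ) = 1 := fun z => by
    rw [conj_hom, ← Units.val_mul, ← map_mul, mul_inv_cancel, map_one, Units.val_one]
  have hpt : ∀ v : C.Gh, C.psi ω φ v * conj (C.psi ω φ v) =
      (fun g => if Cover.InSec p C.R g then φ g * conj (φ g) else 0) (C.π v) := fun v => by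
    show _ = if Cover.InSec p C.R (C.π v) then _ else _
    unfold Cover.psi
    split_ifs
    · rw [map_mul, mul_mul_mul_comm, hω, one_mul]
    · simp
  have hcardGh : Nat.card C.Gh = p * Nat.card G := by
    rw [← C.π.ker.card_mul_index, Subgroup.index_ker,
      MonoidHom.range_eq_top.2 C.surj, Subgroup.card_top, C.ker_card]
  have hstep1 : Cfsg.classInner (C.psi ω φ) (C.psi ω φ) =
      (Nat.card G : ℂ)⁻¹ * ∑ g : G, (if Cover.InSec p C.R g then φ g * conj (φ g) else 0) := by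
    unfold Cfsg.classInner
    rw [Finset.sum_congr rfl fun v _ => hpt v, sum_comp_surj C.π C.surj
      (fun g => if Cover.InSec p C.R g then φ g * conj (φ g) else 0), C.ker_card, hcardGh]
    have : (p : ℂ) ≠ 0 := Nat.cast_ne_zero.2 D.hp.ne_zero
    push_cast
    field_simp
  -- values outside the sections of `R`
  have hec : conj e = e := by
    rcases mul_self_eq_one_iff.1 he with rfl | rfl <;> simp
  have hout : ∀ g : G, (if Cover.InSec p C.R g then φ g * conj (φ g) else 0) =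
      φ g * conj (φ g) - D.ext f g := fun g => by
    have hiff := D.inSec_iff C.R_le g
    by_cases hpp : pp p g = 1
    · have h1 : Cover.InSec p C.R g := ⟨1, by rw [hpp]; simp⟩
      rw [if_pos h1, Setup.ext, if_pos hpp, sub_zero]
    · rw [Setup.ext, if_neg hpp]
      by_cases hR : (D.rep g : G) ∈ C.R
      · rw [if_pos (hiff.2 hR)]
        simp [hf, hR]
      · rw [if_neg (fun h => hR (hiff.1 h))]
        have hreal : conj (φ g) = φ g := by
          simp only [hφ, map_add, map_mul, Complex.conj_natCast, map_one, hec]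
          congr 2
          have h := congrArg conj (hX g hpp)
          rw [map_mul, map_add, hec, conj_hom, conj_hom, inv_inv] at h
          rw [h, hX g hpp, add_comm]
        rw [hreal, hf]
        simp only [hφ, if_neg hR, hX g hpp]
        ring
  -- the norm of `φ`
  have hnorm : Cfsg.classInner φ φ = (A : ℂ) ^ 2 + 1 := by
    have hXX : Cfsg.classInner X.1 X.1 = 1 := H57.irr_inner_self X.2
    have hX0 : Cfsg.classInner X.1 (H26.oneIrr G).1 = 0 :=
      H57.irr_inner_ne X.2 (H26.oneIrr G).2 (fun h => hX1 (Subtype.ext h))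
    have h0X : Cfsg.classInner (H26.oneIrr G).1 X.1 = 0 :=
      H57.irr_inner_ne (H26.oneIrr G).2 X.2 (fun h => hX1 (Subtype.ext h).symm)
    have h00 : Cfsg.classInner (H26.oneIrr G).1 (H26.oneIrr G).1 = 1 :=
      H57.irr_inner_self (H26.oneIrr G).2
    have e1 : φ = ((A : ℂ) * e) • X.1 + (H26.oneIrr G).1 := funext fun g => by
      simp [hφ, H26.oneIrr_val, mul_assoc]
    rw [e1, H26.classInner_add_left, H26.classInner_add_right, H26.classInner_add_right,
      H26.classInner_smul_left, H26.classInner_smul_left, H26.classInner_smul_right,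
      H26.classInner_smul_right, hXX, hX0, h0X, h00, map_mul, Complex.conj_natCast, hec]
    linear_combination ((A : ℂ) ^ 2) * he
  rw [hstep1, Finset.sum_congr rfl fun g _ => hout g, Finset.sum_sub_distrib, mul_sub,
    show (Nat.card G : ℂ)⁻¹ * ∑ g, φ g * conj (φ g) = (A : ℂ) ^ 2 + 1 from hnorm]
  have hs := hsum f hfe
  rw [show ∑ x ∈ Finset.univ.erase 1, f x = _ from sum_sq_off_R D C μ hμ hμR A hA] at hs
  have n1 : (Nat.card G : ℂ) ≠ 0 := Nat.cast_ne_zero.2 Nat.card_pos.ne'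
  have n2 : (2 * Nat.card ↥(D.P : Subgroup G) : ℂ) ≠ 0 :=
    mul_ne_zero two_ne_zero (Nat.cast_ne_zero.2 Nat.card_pos.ne')
  have hS : ∑ g : G, D.ext f g = (Nat.card G : ℂ) * (A : ℂ) ^ 2 := by
    refine mul_left_cancel₀ n2 (hs.trans ?_)
    ring
  rw [hS, inv_mul_cancel_left₀ n1]
  ring

/-- The twisted class function `psi` has norm one. -/
theorem psi_norm {D : Setup G p} (C : Cover D) [Fintype C.Gh] (ω : C.π.ker →* ℂˣ)
    (X : Cfsg.IrrCharacter G) (hX1 : X ≠ H26.oneIrr G) (e : ℂ) (he : e * e = 1)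
    (μ : ↥(D.P : Subgroup G) →* ℂˣ) (hμ : μ ≠ 1)
    (hμR : ∀ x : ↥(D.P : Subgroup G), (x : G) ∈ C.R → μ x = 1)
    (hX : ∀ g, pp p g ≠ 1 → e * X.1 g = (μ (D.rep g) : ℂ) + (μ (D.rep g)⁻¹ : ℂ))
    (A : ℕ) (hA : 2 * A + 1 = p) :
    Cfsg.classInner (C.psi ω (fun g => (A : ℂ) * (e * X.1 g) + 1))
      (C.psi ω (fun g => (A : ℂ) * (e * X.1 g) + 1)) = 1 := by
  classical
  exact psi_norm' (fun f hf => by convert H76.SmithTyrer.sum_singular D f hf) C ω X hX1 e he μ hμ
    hμR hX A hA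

end Cfsg.Agent.H63.SmithTyrer
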